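import Cfsg.Agent.H535.K4.ON
import Cfsg.Agent.H226.R2.Base
import Cfsg.Agent.H776.CY.Congr

/-!
# S4829, `p = 2`: the row of O'N (helper598)

The character of degree 58653 is determined by its degree (helper535): it is rational and invariant under all
automorphisms.
-/

set_option autoImplicit false

namespace Cfsg.Agent.H598.R2.ON

open Cfsg Subgroup
open Cfsg.Agent.Characters.Core Cfsg.Agent.Characters
open Cfsg.Agent.H770.CY Cfsg.Agent.H226.R2
open Cfsg.Agent.H921.K4 (Uniq)
open Cfsg.Agent.H535.K4.ON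

universe u

/-- a nontrivial character of odd degree which is determined by its degree is enough -/
theorem ratInv_of_uniq {S : Type u} [Group S] [Finite S] {χ : S → ℂ} (h : Uniq χ) (h1 : χ ≠ 1) : RatInv S ⊤ := by
  refine ⟨χ, h.irr, h1, ⟨charDegree χ, ?_, ?_⟩, fun g => ?_, fun φ _ => h.inv φ⟩
  · exact Nat.not_even_iff_odd.1 fun h2 => h.odd h2.two_dvd
  · exact Cfsg.Agent.Blocks.Basic.irr_one_eq_charDegree h.irr
  · exact (GaloisBasic.exists_rat_iff (isIrr_isCharacter h.irr) g).2 fun k hk => h.rat k hk g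

theorem row2_of_uniq {S : Type u} [Group S] [Finite S] {χ : S → ℂ} (h : Uniq χ) (h1 : χ ≠ 1) : Row2 S :=
  row2_of_odd_index (Γ := ⊤) (by rw [Subgroup.index_top]; exact odd_one) (ratInv_of_uniq h h1)

theorem row2_ON : Row2 Spor.ON := by
  classical
  have hfin : Finite Spor.ON := KFacts.ON.Cent.finite_ON
  have hs : IsSimpleGroup Spor.ON := KFacts.ON.Cent.hON.1
  have hna : ¬ IsMulCommutative Spor.ON := by
    intro h
    have h1 := H210.On7.px1
    rw [h.is_comm.comm H210.On7.p0 H210.On7.x1, mul_inv_cancel_right] at h1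
    have h3 := H210.On7.px2
    rw [h.is_comm.comm H210.On7.p0 H210.On7.x2, mul_inv_cancel_right, ← h1] at h3
    have h4 : H210.On7.x1 ^ 2 = 1 := by rw [pow_two]; nth_rewrite 1 [h3]; exact inv_mul_cancel _
    exact H210.On7.x1_ne (R04.ThreeAbs.eq_one_of_sq_cube h4 H210.On7.x1_pow)
  obtain ⟨Δ⟩ := H210.On7.exists_data
  obtain ⟨b, -, hb⟩ := exists_deg hna Δ 58653 a_f58653 cs_f58653 cert_f58653 all_f58653
  have ub : Uniq (b : Spor.ON → ℂ) := uniq_of hb (by norm_num) fun ψ hψ =>
    uniq_deg hna Δ 58653 a_u58653 m_u58653 (by norm_num [m_u58653]) cs_u58653 cert_u58653 all_u58653 hψ hb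
  refine row2_of_uniq ub fun h1 => ?_
  have h2 := congrFun h1 1
  rw [Cfsg.Agent.Blocks.Basic.irr_one_eq_charDegree b.2, hb, Pi.one_apply] at h2
  norm_num at h2

theorem rowFor2_ON : RowFor2 (fun X _ => Spor.IsoON X) := by
  intro X _ _ _ _ hX
  obtain ⟨e⟩ := hX
  exact H776.CY.Row2.congr e row2_ON

end Cfsg.Agent.H598.R2.ON
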